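import Mathlib

set_option autoImplicit false

namespace Cfsg.Agent.Lib.Helper28.SixIdx

abbrev G6 := Equiv.Perm (Fin 6)

/-- the 5-cycle `(0 1 2 3 4)` -/
def c0 : G6 := ⟨![1, 2, 3, 4, 0, 5], ![4, 0, 1, 2, 3, 5], by decide, by decide⟩

/-- edge colouring of `K₆` given by the standard 1-factorisation -/
def col (i j : Fin 6) : ℕ :=
  if i = j then 5 else if i.val = 5 then j.val else if j.val = 5 then i.val
  else (3 * (i.val + j.val)) % 5

/-- the transitive subgroup of order 120: stabiliser of the 1-factorisation -/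
def T0 : Subgroup G6 where
  carrier := {g | ∀ i j k l, col i j = col k l ↔ col (g i) (g j) = col (g k) (g l)}
  mul_mem' := fun {a b} ha hb i j k l => (hb i j k l).trans (ha _ _ _ _)
  one_mem' := fun i j k l => Iff.rfl
  inv_mem' := fun {a} ha i j k l => by
    have := ha (a⁻¹ i) (a⁻¹ j) (a⁻¹ k) (a⁻¹ l)
    simpa using this.symm

theorem mem_T0 (g : G6) :
    g ∈ T0 ↔ ∀ i j k l, col i j = col k l ↔ col (g i) (g j) = col (g k) (g l) := Iff.rfl

instance : DecidablePred (· ∈ T0) := fun g => decidable_of_iff _ (mem_T0 g).symm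

theorem card_T0 : Nat.card T0 = 120 := by
  have h := Nat.subtype_card (p := fun g : G6 => g ∈ T0)
    (Finset.univ.filter (fun g : G6 => g ∈ T0)) (by simp)
  refine h.trans ?_
  decide +kernel

theorem c0_mem : c0 ∈ T0 := by decide +kernel

theorem norm_le : ∀ g : G6, (g * c0 * g⁻¹) * c0 = c0 * (g * c0 * g⁻¹) → g ∈ T0 := by
  decide +kernel

theorem word_le : ∀ g : G6, g 5 ≠ 5 →
    (∀ i j : Fin 5, (g * c0 ^ i.val * g * c0 ^ j.val * g) 5 = 5 →
      ((g * c0 ^ i.val * g * c0 ^ j.val * g) * c0 * (g * c0 ^ i.val * g * c0 ^ j.val * g)⁻¹) * c0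
        = c0 * ((g * c0 ^ i.val * g * c0 ^ j.val * g) * c0 *
            (g * c0 ^ i.val * g * c0 ^ j.val * g)⁻¹)) → g ∈ T0 := by
  decide +kernel

theorem c0_trans : ∀ x y : Fin 6, x ≠ 5 → y ≠ 5 → ∃ k : Fin 5, (c0 ^ k.val) y = x := by
  decide +kernel

theorem c0_fix : ∀ x : Fin 6, c0 x = x → x = 5 := by decide

theorem exists_move : ∃ t ∈ T0, t 5 ≠ 5 := by
  decide +kernel

end Cfsg.Agent.Lib.Helper28.SixIdx
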