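import Mathlib
import Cfsg.Agent.Lib.Helper28.SixIdx
import Cfsg.Agent.Lib.Helper14.SymIdx

set_option autoImplicit false

namespace Cfsg.Agent.Lib.Helper28.SixIdx

theorem conj_commute {G : Type*} [Group G] [Finite G] (hK : Nat.card G = 20) (c : G)
    (ho : orderOf c = 5) (h : G) : Commute (h * c * h⁻¹) c := by
  have : Fact (Nat.Prime 5) := ⟨by norm_num⟩
  have hp : IsPGroup 5 (Subgroup.zpowers c) := by
    apply IsPGroup.of_card (n := 1)
    rw [Nat.card_zpowers, ho]; norm_num
  obtain ⟨P, hP⟩ := hp.exists_le_sylow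
  have h3 : Nat.card (P : Subgroup G) * (P : Subgroup G).index = 20 := by
    rw [Subgroup.card_mul_index, hK]
  have h4 : ¬ 5 ∣ (P : Subgroup G).index := P.not_dvd_index
  obtain ⟨n, h5⟩ := P.2.exists_card_eq
  have h5' : Nat.card (P : Subgroup G) = 5 ^ n := h5
  rw [h5'] at h3
  have hn : n < 2 := by
    by_contra hn
    have : 5 ^ 2 ∣ 5 ^ n := pow_dvd_pow 5 (by omega)
    have h6 : 5 ^ 2 ∣ 20 := by rw [← h3]; exact Dvd.dvd.mul_right this _
    norm_num at h6
  have hidx : (P : Subgroup G).index = 4 ∧ n = 1 := by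
    interval_cases n
    · exfalso; apply h4; omega
    · omega
  have h1 : Nat.card (Sylow 5 G) ≡ 1 [MOD 5] := card_sylow_modEq_one 5 G
  have h2 : Nat.card (Sylow 5 G) ∣ (P : Subgroup G).index := P.card_dvd_index
  rw [hidx.1] at h2
  have h7 : Nat.card (Sylow 5 G) = 1 := by
    have hle : Nat.card (Sylow 5 G) ≤ 4 := Nat.le_of_dvd (by norm_num) h2
    unfold Nat.ModEq at h1
    interval_cases h : Nat.card (Sylow 5 G) <;> simp_all
  have hN : (P : Subgroup G).Normal := by
    rw [P.card_eq_index_normalizer, Subgroup.index_eq_one] at h7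
    exact Subgroup.normalizer_eq_top_iff.mp h7
  have hEq : Subgroup.zpowers c = (P : Subgroup G) := by
    apply Subgroup.eq_of_le_of_card_ge hP
    rw [h5', hidx.2, Nat.card_zpowers, ho]; norm_num
  have hm : h * c * h⁻¹ ∈ Subgroup.zpowers c := by
    rw [hEq]
    exact hN.conj_mem c (hP (Subgroup.mem_zpowers c)) h
  obtain ⟨k, hk⟩ := Subgroup.mem_zpowers_iff.1 hm
  rw [← hk]
  exact (Commute.refl c).zpow_left k

def TwoCls (G : Type*) [Group G] : Prop :=
  ∃ H₁ H₂ : Subgroup G, H₁.index = 6 ∧ H₂.index = 6 ∧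
      (¬ ∃ g : G, Subgroup.map (MulAut.conj g).toMonoidHom H₁ = H₂) ∧
      ∀ H : Subgroup G, H.index = 6 →
        ∃ g : G, Subgroup.map (MulAut.conj g).toMonoidHom H₁ = H ∨
          Subgroup.map (MulAut.conj g).toMonoidHom H₂ = H

theorem map_conj {G G' : Type*} [Group G] [Group G'] (φ : G ≃* G') (g : G) (H : Subgroup G) :
    Subgroup.map (MulAut.conj (φ g)).toMonoidHom (H.map φ.toMonoidHom) =
      (H.map (MulAut.conj g).toMonoidHom).map φ.toMonoidHom := by
  rw [Subgroup.map_map, Subgroup.map_map]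
  congr 1
  ext x
  simp

theorem TwoCls.transport {G G' : Type*} [Group G] [Group G'] (φ : G ≃* G') (h : TwoCls G) :
    TwoCls G' := by
  obtain ⟨H₁, H₂, h1, h2, h3, h4⟩ := h
  have hinj : Function.Injective (Subgroup.map φ.toMonoidHom) := Subgroup.map_injective φ.injective
  have hidx : ∀ H : Subgroup G, (H.map φ.toMonoidHom).index = H.index :=
    fun H => Subgroup.index_map_equiv H φ
  refine ⟨H₁.map φ.toMonoidHom, H₂.map φ.toMonoidHom, by rw [hidx, h1], by rw [hidx, h2], ?_, ?_⟩
  · rintro ⟨g', hg'⟩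
    obtain ⟨g, rfl⟩ := φ.surjective g'
    rw [map_conj] at hg'
    exact h3 ⟨g, hinj hg'⟩
  · intro H' hH'
    obtain ⟨H, rfl⟩ : ∃ H : Subgroup G, H.map φ.toMonoidHom = H' :=
      ⟨H'.comap φ.toMonoidHom, Subgroup.map_comap_eq_self_of_surjective φ.surjective H'⟩
    rw [hidx] at hH'
    obtain ⟨g, hg⟩ := h4 H hH'
    refine ⟨φ g, ?_⟩
    rw [map_conj, map_conj]
    rcases hg with hg | hg
    · left; rw [hg]
    · right; rw [hg]

theorem map_conj_inv {G : Type*} [Group G] (k : G) (H K : Subgroup G)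
    (h : Subgroup.map (MulAut.conj k).toMonoidHom H = K) :
    Subgroup.map (MulAut.conj k⁻¹).toMonoidHom K = H := by
  rw [← h, Subgroup.map_map]
  have : (MulAut.conj k⁻¹).toMonoidHom.comp (MulAut.conj k).toMonoidHom = MonoidHom.id G := by
    ext x
    simp [mul_assoc]
  rw [this, Subgroup.map_id]


theorem conj_c0 : ∀ c : G6, c ^ 5 = 1 → c ≠ 1 → ∃ k : G6, k * c * k⁻¹ = c0 := by
  decide +kernel

theorem stab_commute (H : Subgroup G6) (hH : Nat.card H = 120) (hc : c0 ∈ H) (g0 : G6)
    (hg0 : g0 ∈ H) (hm : g0 5 ≠ 5) (h : G6) (hh : h ∈ H) (h5 : h 5 = 5) :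
    Commute (h * c0 * h⁻¹) c0 := by
  have horb : MulAction.orbit H (5 : Fin 6) = Set.univ := by
    ext x
    simp only [Set.mem_univ, iff_true]
    by_cases hx : x = 5
    · rw [hx]; exact MulAction.mem_orbit_self _
    · obtain ⟨k, hk⟩ := c0_trans x (g0 5) hx hm
      refine ⟨⟨c0 ^ k.val * g0, H.mul_mem (H.pow_mem hc _) hg0⟩, ?_⟩
      exact hk
  have hidx : (MulAction.stabilizer H (5 : Fin 6)).index = 6 := by
    rw [MulAction.index_stabilizer, horb]; simp
  have hcard : Nat.card (MulAction.stabilizer H (5 : Fin 6)) = 20 := by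
    have := Subgroup.card_mul_index (MulAction.stabilizer H (5 : Fin 6))
    rw [hidx, hH] at this
    omega
  have hc5 : c0 5 = 5 := by decide
  let c' : MulAction.stabilizer H (5 : Fin 6) := ⟨⟨c0, hc⟩, hc5⟩
  let h' : MulAction.stabilizer H (5 : Fin 6) := ⟨⟨h, hh⟩, h5⟩
  have ho : orderOf c' = 5 := by
    have : Fact (Nat.Prime 5) := ⟨by norm_num⟩
    have h0 : orderOf c0 = 5 := orderOf_eq_prime (by decide +kernel) (by decide +kernel)
    have h1 : orderOf c' = orderOf c0 := by
      rw [← Subgroup.orderOf_coe, ← Subgroup.orderOf_coe]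
    rw [h1, h0]
  have := conj_commute hcard c' ho h'
  exact congrArg (fun x : MulAction.stabilizer H (5 : Fin 6) => ((x : H) : G6)) this

theorem card_of_index (H : Subgroup G6) (hH : H.index = 6) : Nat.card H = 120 := by
  have := Subgroup.card_mul_index H
  rw [hH, Nat.card_eq_fintype_card (α := G6), Fintype.card_perm] at this
  simp [Nat.factorial] at this
  omega

theorem core (H : Subgroup G6) (hH : H.index = 6) (hc : c0 ∈ H) :
    H = MulAction.stabilizer G6 (5 : Fin 6) ∨ H = T0 := by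
  have hcard := card_of_index H hH
  by_cases hfix : ∀ g ∈ H, g 5 = 5
  · left
    exact Cfsg.Agent.Lib.Helper14.SymIdx.eq_stabilizer_of_le H (by rw [hH]; rfl) 5
      (fun g hg => hfix g hg)
  · right
    push Not at hfix
    obtain ⟨g0, hg0, hm⟩ := hfix
    have hA := stab_commute H hcard hc g0 hg0 hm
    apply Subgroup.eq_of_le_of_card_ge
    · intro g hg
      by_cases h5 : g 5 = 5
      · exact norm_le g (hA g hg h5)
      · apply word_le g h5
        intro i j hw
        exact hA _ (H.mul_mem (H.mul_mem (H.mul_mem (H.mul_mem hg (H.pow_mem hc _)) hg)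
          (H.pow_mem hc _)) hg) hw
    · rw [card_T0, hcard]

theorem twoCls6 : TwoCls G6 := by
  refine ⟨MulAction.stabilizer G6 (5 : Fin 6), T0, ?_, ?_, ?_, ?_⟩
  · rw [MulAction.index_stabilizer_of_transitive]; simp
  · have := Subgroup.card_mul_index T0
    rw [card_T0, Nat.card_eq_fintype_card (α := G6), Fintype.card_perm] at this
    simp [Nat.factorial] at this
    omega
  · rintro ⟨g, hg⟩
    have key : ∀ t ∈ T0, t (g 5) = g 5 := by
      intro t ht
      rw [← hg] at ht
      obtain ⟨s, hs, rfl⟩ := Subgroup.mem_map.1 ht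
      have hs5 : s 5 = 5 := hs
      simp [hs5]
    have h5 := c0_fix _ (key c0 c0_mem)
    obtain ⟨t, ht, htm⟩ := exists_move
    apply htm
    have := key t ht
    rwa [h5] at this
  · intro H hH
    have hcard := card_of_index H hH
    have : Fact (Nat.Prime 5) := ⟨by norm_num⟩
    obtain ⟨c, hc⟩ := exists_prime_orderOf_dvd_card' (G := H) 5 (by rw [hcard]; norm_num)
    have hc' : orderOf (c : G6) = 5 := by rw [Subgroup.orderOf_coe, hc]
    obtain ⟨k, hk⟩ : ∃ k : G6, k * c * k⁻¹ = c0 := by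
      apply conj_c0
      · rw [← hc']; exact pow_orderOf_eq_one _
      · intro h1
        rw [h1, orderOf_one] at hc'
        norm_num at hc'
    have := core (H.map (MulAut.conj k).toMonoidHom)
      ((Subgroup.index_map_equiv H (MulAut.conj k)).trans hH)
      (Subgroup.mem_map.2 ⟨c, c.2, by simpa using hk⟩)
    refine ⟨k⁻¹, ?_⟩
    rcases this with h | h
    · left; exact map_conj_inv k H _ h
    · right; exact map_conj_inv k H _ h

theorem main5912 {Ω : Type*} [Fintype Ω] [DecidableEq Ω] (h6 : Fintype.card Ω = 6) :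
    TwoCls (Equiv.Perm Ω) :=
  twoCls6.transport (Fintype.equivFinOfCardEq h6).symm.permCongrHom

end Cfsg.Agent.Lib.Helper28.SixIdx
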